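import Cfsg.Agent.H477.HC.NPO

/-!
# Torus elements of `Ω⁺_{2m}(q)` (helper612, S4555 / S4559)

`elt m z` : `diag (z, z⁻¹, 1, ..)` on the coordinates `inl i`, the inverse on the coordinates `inr i`; it lies in
`Ω` for every unit `z`.
-/

set_option autoImplicit false

open Cfsg
open scoped commutatorElement

namespace Cfsg.Agent.H612.PTwo

open Cfsg.Agent.H477.HC

universe u

variable {K : Type u} [Field K] {m : ℕ}

/-- the diagonal isometries -/
def dfun (t : Fin m → Kˣ) : Fin m ⊕ Fin m → Kˣ := Sum.elim t fun i => (t i)⁻¹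

def dlin (t : Fin m → Kˣ) : (Fin m ⊕ Fin m → K) ≃ₗ[K] (Fin m ⊕ Fin m → K) :=
  LinearEquiv.piCongrRight fun j => LinearEquiv.smulOfUnit (dfun t j)

theorem dlin_apply (t : Fin m → Kˣ) (v : Fin m ⊕ Fin m → K) (j : Fin m ⊕ Fin m) :
    dlin t v j = (dfun t j : K) * v j := rfl

def plin (π : Equiv.Perm (Fin m)) : (Fin m ⊕ Fin m → K) ≃ₗ[K] (Fin m ⊕ Fin m → K) :=
  LinearEquiv.funCongrLeft K K (Equiv.sumCongr π π)

theorem plin_inl (π : Equiv.Perm (Fin m)) (v : Fin m ⊕ Fin m → K) (i : Fin m) :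
    plin π v (.inl i) = v (.inl (π i)) := rfl

theorem plin_inr (π : Equiv.Perm (Fin m)) (v : Fin m ⊕ Fin m → K) (i : Fin m) :
    plin π v (.inr i) = v (.inr (π i)) := rfl

theorem mem_of_Q [Finite K] {g : (Fin m ⊕ Fin m → K) ≃ₗ[K] (Fin m ⊕ Fin m → K)}
    (h : ∀ v, quadFormPlus m K (g v) = quadFormPlus m K v) : g ∈ (CForm.plusF K m).iso := by
  have hQ : ∀ v, (CForm.plusF K m).Q (g v) = (CForm.plusF K m).Q v := h
  refine ⟨fun a b => ?_, hQ⟩
  rw [plus_hB, plus_hB, ← map_add, hQ, hQ, hQ]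

theorem dlin_mem [Finite K] (t : Fin m → Kˣ) : dlin t ∈ (CForm.plusF K m).iso := by
  refine mem_of_Q fun v => ?_
  unfold quadFormPlus
  refine Finset.sum_congr rfl fun i _ => ?_
  rw [dlin_apply, dlin_apply]
  change ((t i : Kˣ) : K) * v (.inl i) * (((t i)⁻¹ : Kˣ) * v (.inr i)) = _
  have h : ((t i : Kˣ) : K) * (((t i)⁻¹ : Kˣ) : K) = 1 := by rw [← Units.val_mul, mul_inv_cancel, Units.val_one]
  linear_combination (v (.inl i) * v (.inr i)) * h

theorem plin_mem [Finite K] (π : Equiv.Perm (Fin m)) : plin π ∈ (CForm.plusF K m).iso := by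
  refine mem_of_Q fun v => ?_
  unfold quadFormPlus
  exact Equiv.sum_comp π fun i => v (.inl i) * v (.inr i)

theorem plin_dlin (π : Equiv.Perm (Fin m)) (s : Fin m → Kˣ) :
    plin π * dlin s * (plin π)⁻¹ = dlin (fun i => s (π i)) := by
  rw [mul_inv_eq_iff_eq_mul]
  apply LinearEquiv.ext
  intro v
  funext j
  rw [LinearEquiv.mul_apply, LinearEquiv.mul_apply]
  rcases j with j | j <;> rfl

theorem dlin_mul (s t : Fin m → Kˣ) : dlin s * dlin t = dlin (s * t) := by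
  apply LinearEquiv.ext
  intro v
  funext j
  rw [LinearEquiv.mul_apply, dlin_apply, dlin_apply, dlin_apply, ← mul_assoc, ← Units.val_mul]
  rcases j with j | j
  · rfl
  · change (((s j)⁻¹ * (t j)⁻¹ : Kˣ) : K) * _ = (((s j * t j)⁻¹ : Kˣ) : K) * _
    rw [mul_inv]

theorem dlin_one : dlin (1 : Fin m → Kˣ) = 1 := by
  apply LinearEquiv.ext
  intro v
  funext j
  rw [dlin_apply]
  rcases j with j | j <;> simp [dfun]

theorem dlin_inv (s : Fin m → Kˣ) : (dlin s)⁻¹ = dlin (fun i => (s i)⁻¹) := by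
  rw [inv_eq_iff_mul_eq_one, dlin_mul]
  have : (s * fun i => (s i)⁻¹) = 1 := by funext i; exact mul_inv_cancel (s i)
  rw [this, dlin_one]

/-- the parameters `(z, z⁻¹, 1, ..)` -/
def par (i₀ i₁ : Fin m) (z : Kˣ) : Fin m → Kˣ := fun i => if i = i₀ then z else if i = i₁ then z⁻¹ else 1

variable [Finite K]

theorem exists_elt (i₀ i₁ : Fin m) (h01 : i₀ ≠ i₁) (z : Kˣ) :
    ∃ x : Omega K (quadFormPlus m K), ∀ v, (omMat x).mulVec v = dlin (par i₀ i₁ z) v := by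
  obtain ⟨e, he⟩ : ∃ e : isometryGroup K (quadFormPlus m K) ≃* (CForm.plusF K m).iso,
      ∀ y : isometryGroup K (quadFormPlus m K), ∀ v : Fin m ⊕ Fin m → K,
        ((y : GL (Fin m ⊕ Fin m) K) : Matrix (Fin m ⊕ Fin m) (Fin m ⊕ Fin m) K).mulVec v =
          ((e y : (CForm.plusF K m).iso) : (Fin m ⊕ Fin m → K) ≃ₗ[K] (Fin m ⊕ Fin m → K)) v :=
    ⟨isoQuad (CForm.plusF K m) (plus_hB K m), fun y v => rfl⟩
  let s : Fin m → Kˣ := fun i => if i = i₀ then z else 1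
  let a : isometryGroup K (quadFormPlus m K) := e.symm ⟨dlin s, dlin_mem s⟩
  let b : isometryGroup K (quadFormPlus m K) := e.symm ⟨plin (Equiv.swap i₀ i₁), plin_mem _⟩
  refine ⟨⟨⁅a, b⁆, Subgroup.commutator_mem_commutator (Subgroup.mem_top _) (Subgroup.mem_top _)⟩, fun v => ?_⟩
  change ((⁅a, b⁆ : isometryGroup K (quadFormPlus m K)) : GL (Fin m ⊕ Fin m) K).val.mulVec v = _
  rw [he, commutatorElement_def, map_mul, map_mul, map_mul, map_inv, map_inv]
  have ha : e a = ⟨dlin s, dlin_mem s⟩ := e.apply_symm_apply _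
  have hb : e b = ⟨plin (Equiv.swap i₀ i₁), plin_mem _⟩ := e.apply_symm_apply _
  rw [ha, hb]
  change (dlin s * plin (Equiv.swap i₀ i₁) * (dlin s)⁻¹ * (plin (Equiv.swap i₀ i₁))⁻¹ :
    (Fin m ⊕ Fin m → K) ≃ₗ[K] (Fin m ⊕ Fin m → K)) v = _
  rw [mul_assoc (dlin s), mul_assoc (dlin s), dlin_inv, plin_dlin, dlin_mul]
  congr 2
  funext i
  change s i * (s (Equiv.swap i₀ i₁ i))⁻¹ = par i₀ i₁ z i
  simp only [s, par]
  by_cases h0 : i = i₀
  · rw [if_pos h0, if_pos h0, h0, Equiv.swap_apply_left, if_neg h01.symm, inv_one, mul_one]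
  · rw [if_neg h0, if_neg h0]
    by_cases h1 : i = i₁
    · rw [if_pos h1, h1, Equiv.swap_apply_right, if_pos rfl, one_mul]
    · rw [if_neg h1, Equiv.swap_apply_of_ne_of_ne h0 h1, if_neg h0, inv_one, mul_one]

end Cfsg.Agent.H612.PTwo
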