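import Cfsg.Agent.H612.PTwo.Elt
import Cfsg.Agent.H649.VanC.Orth
import Cfsg.Agent.H620.PNorm
import Cfsg.Agent.H477.HC.Siegel
import Cfsg.Agent.H720.PV.Top

/-!
# The row `POmega_{2m}^+(q)`, `m ≥ 5`, of S4555 / S4559 for the primes `p | q - 1` (helper612)

* `shp_elt` : the shape of `diag (z, z⁻¹, 1, ..)`;
* `orderOf_elt` : its order modulo the centre.
-/

set_option autoImplicit false

open Cfsg

namespace Cfsg.Agent.H612.PTwo

open Cfsg.Agent.H477.HC Module Cfsg.Agent.H649.VanC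

universe u

section TSdim

variable {K : Type u} [Field K] {V : Type u} [AddCommGroup V] [Module K V]

theorem two_mul_le (F : CForm K V) [FiniteDimensional K V] {W : Submodule K V} (hW : F.TS W) :
    2 * finrank K W ≤ finrank K V := by
  obtain ⟨W', hW', h0⟩ := F.exists_opp (k := finrank K W) ⟨hW, rfl⟩
  have h1 : W ⊓ W' = ⊥ := by
    rw [eq_bot_iff, ← h0]
    exact inf_le_inf_left _ hW'.1.le_perp
  have h2 := Submodule.finrank_sup_add_finrank_inf_eq W W'
  rw [h1, finrank_bot, add_zero, hW'.2] at h2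
  have h3 := Submodule.finrank_le (W ⊔ W')
  omega

end TSdim

variable {K : Type u} [Field K] {m : ℕ}

theorem dlin_pow (s : Fin m → Kˣ) (n : ℕ) : dlin s ^ n = dlin (s ^ n) := by
  induction n with
  | zero => rw [pow_zero, pow_zero, dlin_one]
  | succ n ih => rw [pow_succ, ih, dlin_mul, pow_succ]

theorem par_pow {i₀ i₁ : Fin m} {z : Kˣ} {n : ℕ} (hz : z ^ n = 1) : par i₀ i₁ z ^ n = 1 := by
  funext i
  rw [Pi.pow_apply, par, Pi.one_apply]
  split_ifs
  · exact hz
  · rw [inv_pow, hz, inv_one]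
  · exact one_pow n

theorem dlin_single (t : Fin m → Kˣ) (j : Fin m ⊕ Fin m) :
    dlin t (Pi.single j 1) = (dfun t j : K) • (Pi.single j 1 : Fin m ⊕ Fin m → K) := by
  funext k
  rw [dlin_apply, Pi.smul_apply, smul_eq_mul]
  by_cases h : k = j
  · subst h; rfl
  · rw [Pi.single_eq_of_ne h, mul_zero, mul_zero]

theorem dlin_fix {i₀ i₁ i₂ : Fin m} (h0 : i₂ ≠ i₀) (h1 : i₂ ≠ i₁) (z : Kˣ) :
    dlin (par i₀ i₁ z) (Pi.single (.inl i₂) 1) = Pi.single (.inl i₂) 1 ∧
      dlin (par i₀ i₁ z) (Pi.single (.inr i₂) 1) = Pi.single (.inr i₂) 1 := by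
  have h : par i₀ i₁ z i₂ = 1 := by rw [par, if_neg h0, if_neg h1]
  constructor
  · rw [dlin_single]
    change ((par i₀ i₁ z i₂ : Kˣ) : K) • _ = _
    rw [h, Units.val_one, one_smul]
  · rw [dlin_single]
    change (((par i₀ i₁ z i₂)⁻¹ : Kˣ) : K) • _ = _
    rw [h, inv_one, Units.val_one, one_smul]

variable [Finite K]

omit [Finite K] in
theorem shp_elt {i₀ i₁ i₂ : Fin m} (h0 : i₂ ≠ i₀) (h1 : i₂ ≠ i₁) {z : Kˣ} {n : ℕ} (hz : z ^ n = 1)
    (hz1 : z ≠ 1) : Shp (CForm.plusF K m) m n (dlin (par i₀ i₁ z)) := by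
  obtain ⟨he, hf⟩ := dlin_fix h0 h1 z
  refine ⟨by rw [dlin_pow, par_pow hz, dlin_one], ?_, fun W hW => ?_, Pi.single (.inl i₂) 1, Pi.single (.inr i₂) 1, ?_, ?_,
    ?_, he, hf⟩
  · set L : Module.End K (Fin m ⊕ Fin m → K) := ((dlin (par i₀ i₁ z) : (Fin m ⊕ Fin m → K) ≃ₗ[K]
      (Fin m ⊕ Fin m → K)) : (Fin m ⊕ Fin m → K) →ₗ[K] (Fin m ⊕ Fin m → K)) - 1 with hL
    have h2 := LinearMap.finrank_range_add_finrank_ker L
    have h3 : finrank K (Fin m ⊕ Fin m → K) = 2 * m := by
      rw [finrank_pi, Fintype.card_sum, Fintype.card_fin]; ring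
    have h4 : 0 < finrank K (LinearMap.ker L) := by
      rw [Nat.pos_iff_ne_zero, Ne, Submodule.finrank_eq_zero]
      intro hb
      have h5 : (Pi.single (.inl i₂) 1 : Fin m ⊕ Fin m → K) ∈ LinearMap.ker L := by
        rw [LinearMap.mem_ker, hL, LinearMap.sub_apply, Module.End.one_apply, sub_eq_zero]
        exact he
      rw [hb, Submodule.mem_bot] at h5
      have h6 := congrFun h5 (.inl i₂)
      rw [Pi.single_eq_same] at h6
      exact one_ne_zero h6
    omega
  · by_contra hcon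
    push Not at hcon
    -- the coordinates at `i₀` vanish
    have hz' : (z : K) ≠ 1 := fun h => hz1 (Units.ext (by rw [h, Units.val_one]))
    have hw : ∀ w ∈ W, w (.inl i₀) = 0 ∧ w (.inr i₀) = 0 := by
      intro w hw
      have h2 := hcon w hw
      constructor
      · have h3 := congrFun h2 (.inl i₀)
        rw [dlin_apply] at h3
        have h4 : (dfun (par i₀ i₁ z) (.inl i₀) : K) = z := by
          change ((par i₀ i₁ z i₀ : Kˣ) : K) = z
          rw [par, if_pos rfl]
        rw [h4] at h3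
        have h5 : ((z : K) - 1) * w (.inl i₀) = 0 := by linear_combination h3
        exact (mul_eq_zero.1 h5).resolve_left (sub_ne_zero.2 hz')
      · have h3 := congrFun h2 (.inr i₀)
        rw [dlin_apply] at h3
        have h4 : (dfun (par i₀ i₁ z) (.inr i₀) : K) = ((z⁻¹ : Kˣ) : K) := by
          change (((par i₀ i₁ z i₀)⁻¹ : Kˣ) : K) = _
          rw [par, if_pos rfl]
        rw [h4] at h3
        have h6 : (z : K) * ((z⁻¹ : Kˣ) : K) = 1 := by rw [← Units.val_mul, mul_inv_cancel, Units.val_one]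
        have h5 : ((z : K) - 1) * w (.inr i₀) = 0 := by
          linear_combination (-(z : K)) * h3 + w (.inr i₀) * h6
        exact (mul_eq_zero.1 h5).resolve_left (sub_ne_zero.2 hz')
    set e₀ : Fin m ⊕ Fin m → K := Pi.single (.inl i₀) 1 with he₀
    have hs : (CForm.plusF K m).Sing e₀ := by
      constructor
      · simp [CForm.plusF_Q, quadFormPlus, he₀]
      · simp [CForm.plusF_B, CForm.hypB, he₀]
    have hperp : W ≤ (CForm.plusF K m).perp (Submodule.span K {e₀}) := by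
      intro w hw' u hu
      obtain ⟨a, rfl⟩ := Submodule.mem_span_singleton.1 hu
      rw [CForm.B_smul_right]
      have h2 : (CForm.plusF K m).B w e₀ = 0 := by
        simp [CForm.plusF_B, CForm.hypB, he₀, Pi.single_apply, (hw w hw').2]
      rw [h2, mul_zero]
    have hTS := (CForm.plusF K m).TS_sup hW.1 ((CForm.plusF K m).TS_span_singleton hs) hperp
    have h2 := two_mul_le _ hTS
    have h3 : W ⊓ Submodule.span K {e₀} = ⊥ := by
      rw [eq_bot_iff]
      rintro v ⟨hv, hv'⟩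
      obtain ⟨a, rfl⟩ := Submodule.mem_span_singleton.1 hv'
      have h4 := (hw _ hv).1
      rw [Pi.smul_apply, he₀, Pi.single_eq_same, smul_eq_mul, mul_one] at h4
      rw [h4, zero_smul]
      exact Submodule.zero_mem _
    have h4 := Submodule.finrank_sup_add_finrank_inf_eq W (Submodule.span K {e₀})
    rw [h3, finrank_bot, add_zero, hW.2, finrank_span_singleton (by
      intro h
      have h6 := congrFun h (.inl i₀)
      rw [he₀, Pi.single_eq_same] at h6
      exact one_ne_zero h6)] at h4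
    rw [h4, finrank_pi, Fintype.card_sum, Fintype.card_fin] at h2
    omega
  · simp [CForm.plusF_Q, quadFormPlus]
  · simp [CForm.plusF_Q, quadFormPlus]
  · rw [CForm.plusF_B, CForm.hypB]
    simp [Pi.single_apply]

/-- the order modulo the centre -/
theorem orderOf_elt {i₀ i₁ i₂ : Fin m} (h0 : i₂ ≠ i₀) (h1 : i₂ ≠ i₁) {z : Kˣ} {p : ℕ} (hp : p.Prime)
    (hz : z ^ p = 1) (hz1 : z ≠ 1) (hm : 2 ≤ m) {x : Omega K (quadFormPlus m K)}
    (hx : ∀ v, (omMat x).mulVec v = dlin (par i₀ i₁ z) v) :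
    orderOf (QuotientGroup.mk x : POmega K (quadFormPlus m K)) = p := by
  have : Fact p.Prime := ⟨hp⟩
  obtain ⟨he, -⟩ := dlin_fix h0 h1 z
  have hs0 : dlin (par i₀ i₁ z) (Pi.single (.inl i₀) 1) = (z : K) • (Pi.single (.inl i₀) 1 : Fin m ⊕ Fin m → K) := by
    rw [dlin_single]
    change ((par i₀ i₁ z i₀ : Kˣ) : K) • _ = _
    rw [par, if_pos rfl]
  have hz' : (z : K) ≠ 1 := fun h => hz1 (Units.ext (by rw [h, Units.val_one]))
  refine orderOf_eq_prime ?_ fun h => ?_
  · have h2 : x ^ p = 1 := by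
      apply Subtype.ext
      apply Subtype.ext
      apply Units.ext
      have h3 : ∀ n : ℕ, ∀ v, (omMat (x ^ n)).mulVec v = (dlin (par i₀ i₁ z) ^ n) v := by
        intro n
        induction n with
        | zero =>
          intro v
          rw [pow_zero, pow_zero]
          change (1 : Matrix (Fin m ⊕ Fin m) (Fin m ⊕ Fin m) K).mulVec v = v
          rw [Matrix.one_mulVec]
        | succ n ih =>
          intro v
          rw [pow_succ, pow_succ, LinearEquiv.mul_apply, ← ih, ← hx]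
          change ((omMat (x ^ n)) * (omMat x)).mulVec v = _
          rw [Matrix.mulVec_mulVec]
      change omMat (x ^ p) = 1
      apply Matrix.ext_of_mulVec_single
      intro i
      rw [h3, dlin_pow, par_pow hz, dlin_one, Matrix.one_mulVec]
      rfl
    change (QuotientGroup.mk x : POmega K (quadFormPlus m K)) ^ p = 1
    rw [← QuotientGroup.mk_pow, h2]
    rfl
  · have h2 : x ∈ Subgroup.center (Omega K (quadFormPlus m K)) := (QuotientGroup.eq_one_iff x).1 h
    rcases cen_plus K hm x h2 with h3 | h3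
    · have h4 := hx (Pi.single (.inl i₀) 1)
      rw [h3, Matrix.one_mulVec, hs0] at h4
      have h5 := congrFun h4 (.inl i₀)
      rw [Pi.smul_apply, Pi.single_eq_same, smul_eq_mul, mul_one] at h5
      exact hz' h5.symm
    · have h4 := hx (Pi.single (.inl i₂) 1)
      rw [h3, Matrix.neg_mulVec, Matrix.one_mulVec, he] at h4
      have h5 := congrFun h4 (.inl i₂)
      rw [Pi.neg_apply, Pi.single_eq_same] at h5
      have h6 := hx (Pi.single (.inl i₀) 1)
      rw [h3, Matrix.neg_mulVec, Matrix.one_mulVec, hs0] at h6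
      have h7 := congrFun h6 (.inl i₀)
      rw [Pi.smul_apply, Pi.neg_apply, Pi.single_eq_same, smul_eq_mul, mul_one] at h7
      exact hz' (h7.symm.trans h5)

theorem exists_z {p : ℕ} (hp : p.Prime) (hd : p ∣ Nat.card K - 1) : ∃ z : Kˣ, z ^ p = 1 ∧ z ≠ 1 := by
  have : Fact p.Prime := ⟨hp⟩
  obtain ⟨z, hz⟩ := exists_prime_orderOf_dvd_card' (G := Kˣ) p (by rw [Nat.card_units]; exact hd)
  refine ⟨z, by rw [← hz]; exact pow_orderOf_eq_one z, ?_⟩
  rintro rfl
  rw [orderOf_one] at hz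
  exact hp.one_lt.ne hz

theorem cast_ne_zero {p : ℕ} (hp : p.Prime) (hd : p ∣ Nat.card K - 1) : (p : K) ≠ 0 := by
  obtain ⟨z, hz, hz1⟩ := exists_z hp hd
  intro h0
  obtain ⟨r, hr⟩ := CharP.exists K
  have hrp : r.Prime := (CharP.char_is_prime_or_zero K r).resolve_right (CharP.char_ne_zero_of_finite K r)
  have h1 : r ∣ p := (CharP.cast_eq_zero_iff K r p).1 h0
  have h2 : r = p := (Nat.prime_dvd_prime_iff_eq hrp hp).1 h1
  subst h2
  have : Fact r.Prime := ⟨hrp⟩
  apply hz1
  have h3 : (z : K) ^ r = 1 ^ r := by rw [one_pow, ← Units.val_pow_eq_pow_val, hz, Units.val_one]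
  have h4 : (z : K) = 1 := frobenius_inj K r h3
  exact Units.ext (by rw [h4, Units.val_one])

/-- **The row `POmega_{2m}^+(q)`, `m ≥ 5`, `p ∣ q - 1`.** -/
theorem row_plus (hm : 5 ≤ m) {p : ℕ} (hp : p.Prime) (hd : p ∣ Nat.card K - 1) :
    H620.PNorm.VOrdP p (POmega K (quadFormPlus m K)) := by
  obtain ⟨z, hz, hz1⟩ := exists_z hp hd
  have hn0 := cast_ne_zero hp hd
  let i₀ : Fin m := ⟨0, by omega⟩
  let i₁ : Fin m := ⟨1, by omega⟩
  let i₂ : Fin m := ⟨2, by omega⟩
  have h01 : i₀ ≠ i₁ := fun h => by simpa [i₀, i₁] using congrArg Fin.val h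
  have h20 : i₂ ≠ i₀ := fun h => by simpa [i₀, i₂] using congrArg Fin.val h
  have h21 : i₂ ≠ i₁ := fun h => by simpa [i₁, i₂] using congrArg Fin.val h
  obtain ⟨x, hx⟩ := exists_elt i₀ i₁ h01 z
  refine ⟨QuotientGroup.mk x, orderOf_elt h20 h21 hp hz hz1 (by omega) hx, ?_⟩
  obtain ⟨r, hr⟩ := CharP.exists K
  have hrp : r.Prime := (CharP.char_is_prime_or_zero K r).resolve_right (CharP.char_ne_zero_of_finite K r)
  have : Fact r.Prime := ⟨hrp⟩
  obtain ⟨W₀, hW₀⟩ : ∃ W₀, W₀ ∈ (CForm.plusF K m).Om m := (CForm.plusF_frame (K := K) (p := r) m 0).1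
  obtain ⟨c, hc, hv⟩ := H720.PV.exists_cus_sq_v K rfl m (by omega) (fun _ => by omega) (fun _ => by omega)
    (fun _ => by omega)
  obtain ⟨χ, hχ, -, hχz, hχv⟩ := H720.PV.exists_char_v (CForm.plusF K m) hW₀ hc hv
  refine vz_orth (CForm.plusF K m) (plus_hB K m) (LieClassical.OrthForms.plusForm m K)
    (LieClassical.OrthForms.coe_plusForm m K).symm ?_ (by simp; omega) (fun α => AutOrth.Main.all_plus hm α) (k := m) (n := p)
    hχ hχz (fun z hz => scal_of (cen_plus K (by omega) z hz)) (fun s hs => ?_) ?_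
  · exact LieClassical.OmegaReindex.nondegenerate_of_left _ (fun x hx => LieClassical.OrthForms.nondeg_plusForm m K x hx)
  · obtain ⟨h1, h2, h3, -⟩ := hs
    exact hχv s p hn0 h1 h2 h3
  · have h1 : ((isoQuad (CForm.plusF K m) (plus_hB K m) (x : isometryGroup K (quadFormPlus m K)) :
        (CForm.plusF K m).iso) : (Fin m ⊕ Fin m → K) ≃ₗ[K] (Fin m ⊕ Fin m → K)) = dlin (par i₀ i₁ z) := by
      apply LinearEquiv.ext
      intro v
      exact hx v
    rw [h1]
    exact shp_elt h20 h21 hz hz1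

end Cfsg.Agent.H612.PTwo
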